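import Mathlib
import Cfsg.Agent.GT.Cores
import Cfsg.Agent.GT.PPrimeCore

/-! Abstract rank one data with a torus element of order dividing `p - 1` acting freely on the Sylow subgroup. -/

set_option autoImplicit false

namespace Cfsg.Agent.R47

open Cfsg
open scoped commutatorElement

/-- Rank one data. -/
structure R1 (p : ℕ) (E : Type*) [Group E] where
  U : Sylow p E
  B : Subgroup E
  n : E
  h : E
  c : E
  UB : (U : Subgroup E) ≤ B
  Bn : ∀ b ∈ B, ∀ u ∈ (U : Subgroup E), b * u * b⁻¹ ∈ (U : Subgroup E)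
  n2 : n * n ∈ B
  bru : ∀ g, g ∈ B ∨ ∃ u ∈ (U : Subgroup E), ∃ b ∈ B, g = u * n * b
  ti : ∀ u ∈ (U : Subgroup E), n * u * n⁻¹ ∈ B → u = 1
  nt : ∃ u ∈ (U : Subgroup E), u ≠ 1
  perf : commutator E = ⊤
  hB : h ∈ B
  hn : n⁻¹ * h * n ∈ B
  free : ∀ u ∈ (U : Subgroup E), h * u = u * h → u = 1
  hp : h ^ (p - 1) = 1
  cB : c ∈ B
  cyc : ∀ b ∈ B, ∃ i : ℤ, ∃ u ∈ (U : Subgroup E), b = c ^ i * u

namespace R1

variable {p : ℕ} {E : Type*} [Group E] (d : R1 p E)

theorem Bn' {b u : E} (hb : b ∈ d.B) (hu : u ∈ (d.U : Subgroup E)) : b⁻¹ * u * b ∈ (d.U : Subgroup E) := by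
  simpa using d.Bn b⁻¹ (d.B.inv_mem hb) u hu

theorem mem_B {g : E} (hg : ∀ u ∈ (d.U : Subgroup E), g * u * g⁻¹ ∈ (d.U : Subgroup E)) : g ∈ d.B := by
  rcases d.bru g with h | ⟨u, hu, b, hb, rfl⟩
  · exact h
  · exfalso
    obtain ⟨u0, hu0, h0⟩ := d.nt
    have h1 : d.n * (b * u0 * b⁻¹) * d.n⁻¹ ∈ d.B := by
      have e : d.n * (b * u0 * b⁻¹) * d.n⁻¹ = u⁻¹ * (u * d.n * b * u0 * (u * d.n * b)⁻¹) * u := by group
      rw [e]
      exact d.UB (mul_mem (mul_mem (inv_mem hu) (hg u0 hu0)) hu)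
    have h2 := d.ti _ (d.Bn b hb u0 hu0) h1
    apply h0
    have e : u0 = b⁻¹ * (b * u0 * b⁻¹) * b := by group
    rw [e, h2]; group

theorem center_le {z : E} (hz : z ∈ Subgroup.center E) : z ∈ d.B :=
  d.mem_B fun u hu => by
    rw [← Subgroup.mem_center_iff.1 hz u]; simpa using hu

theorem eq_one_of_center {z : E} (hz : z ∈ Subgroup.center E) (hu : z ∈ (d.U : Subgroup E)) : z = 1 :=
  d.ti z hu (by rw [Subgroup.mem_center_iff.1 hz d.n]; simpa using d.UB hu)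

theorem ti' {u : E} (hu : u ∈ (d.U : Subgroup E)) (h : d.n⁻¹ * u * d.n ∈ d.B) : u = 1 := by
  have h1 := d.ti _ (d.Bn' d.n2 hu) (by
    have e : d.n * ((d.n * d.n)⁻¹ * u * (d.n * d.n)) * d.n⁻¹ = d.n⁻¹ * u * d.n := by group
    rwa [e])
  have e : u = (d.n * d.n) * ((d.n * d.n)⁻¹ * u * (d.n * d.n)) * (d.n * d.n)⁻¹ := by group
  rw [e, h1]; group

instance : ((d.U : Subgroup E).subgroupOf d.B).Normal :=
  ⟨fun u hu b => by
    rw [Subgroup.mem_subgroupOf] at hu ⊢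
    exact d.Bn b b.2 u hu⟩

/-- A subgroup containing `U` and the opposite group is everything. -/
theorem gen (K : Subgroup E) (h1 : (d.U : Subgroup E) ≤ K)
    (h2 : ∀ u ∈ (d.U : Subgroup E), d.n * u * d.n⁻¹ ∈ K) : K = ⊤ := by
  set N := Subgroup.normalClosure ((d.U : Subgroup E) : Set E) with hN
  have hUN : (d.U : Subgroup E) ≤ N := Subgroup.le_normalClosure
  have hNK : N ≤ K := by
    rw [hN, Subgroup.normalClosure, Subgroup.closure_le]
    intro x hx
    obtain ⟨a, ha, hc⟩ := Group.mem_conjugatesOfSet_iff.1 hx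
    obtain ⟨g, rfl⟩ := isConj_iff.1 hc
    rcases d.bru g with hg | ⟨u, hu, b, hb, rfl⟩
    · exact h1 (d.Bn g hg a ha)
    · have e : u * d.n * b * a * (u * d.n * b)⁻¹ = u * (d.n * (b * a * b⁻¹) * d.n⁻¹) * u⁻¹ := by group
      rw [e]
      exact mul_mem (mul_mem (h1 hu) (h2 _ (d.Bn b hb a ha))) (inv_mem (h1 hu))
  let q := QuotientGroup.mk' N
  have qU : ∀ u ∈ N, q u = 1 := fun u hu => (QuotientGroup.eq_one_iff u).2 hu
  have qB : ∀ b ∈ d.B, ∃ i : ℤ, q b = q d.c ^ i := fun b hb => by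
    obtain ⟨i, u, hu, rfl⟩ := d.cyc b hb
    exact ⟨i, by rw [map_mul, qU u (hUN hu), mul_one, map_zpow]⟩
  have qn : ∃ i : ℤ, q d.n = q d.c ^ i := by
    obtain ⟨u0, hu0, h0⟩ := d.nt
    rcases d.bru (d.n * u0 * d.n⁻¹) with hg | ⟨u, hu, b, hb, e⟩
    · exact absurd (d.ti u0 hu0 hg) h0
    · obtain ⟨i, hi⟩ := qB b hb
      have e1 : q (d.n * u0 * d.n⁻¹) = 1 := by
        rw [map_mul, map_mul, qU u0 (hUN hu0), mul_one, map_inv, mul_inv_cancel]
      rw [e, map_mul, map_mul, qU u (hUN hu), one_mul, hi] at e1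
      exact ⟨-i, by rw [zpow_neg]; exact eq_inv_of_mul_eq_one_left e1⟩
  have qa : ∀ g, ∃ i : ℤ, q g = q d.c ^ i := fun g => by
    rcases d.bru g with hg | ⟨u, hu, b, hb, rfl⟩
    · exact qB g hg
    · obtain ⟨i, hi⟩ := qB b hb
      obtain ⟨j, hj⟩ := qn
      exact ⟨j + i, by rw [map_mul, map_mul, qU u (hUN hu), one_mul, hi, hj, zpow_add]⟩
  have hc : commutator E ≤ N := by
    rw [commutator_def, Subgroup.commutator_le]
    intro x _ y _
    rw [← QuotientGroup.eq_one_iff]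
    change q ⁅x, y⁆ = 1
    rw [map_commutatorElement, commutatorElement_eq_one_iff_commute]
    obtain ⟨i, hi⟩ := qa x
    obtain ⟨j, hj⟩ := qa y
    rw [hi, hj]
    exact Commute.zpow_zpow_self _ _ _
  rw [d.perf] at hc
  exact top_le_iff.1 (hc.trans hNK)

/-- An automorphism centralising `U` and `h` is trivial. -/
theorem aut_eq (α : E ≃* E) (hU : ∀ u ∈ (d.U : Subgroup E), α u = u) (hh : α d.h = d.h) (g : E) : α g = g := by
  have hB : ∀ b ∈ d.B, α b ∈ d.B := fun b hb => d.mem_B fun u hu => by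
    have e : α b * u * (α b)⁻¹ = α (b * u * b⁻¹) := by rw [map_mul, map_mul, map_inv, hU u hu]
    rw [e, hU _ (d.Bn b hb u hu)]
    exact d.Bn b hb u hu
  obtain ⟨b1, hb1, en⟩ : ∃ b1 ∈ d.B, α d.n = d.n * b1 := by
    rcases d.bru (α d.n) with hg | ⟨u, hu, b, hb, e⟩
    · exfalso
      obtain ⟨u0, hu0, h0⟩ := d.nt
      have h1 := d.Bn _ hg u0 hu0
      have e : α (d.n * u0 * d.n⁻¹) = α (α d.n * u0 * (α d.n)⁻¹) := by
        rw [hU _ h1, map_mul, map_mul, map_inv, hU u0 hu0]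
      have e2 := α.injective e
      exact h0 (d.ti u0 hu0 (e2 ▸ d.UB h1))
    · have h1 := hB _ d.hn
      rw [map_mul, map_mul, map_inv, hh, e] at h1
      have hw : d.h⁻¹ * u⁻¹ * d.h * u ∈ (d.U : Subgroup E) := mul_mem (d.Bn' d.hB (inv_mem hu)) hu
      have h2 : d.n⁻¹ * (d.h⁻¹ * u⁻¹ * d.h * u) * d.n ∈ d.B := by
        have e : d.n⁻¹ * (d.h⁻¹ * u⁻¹ * d.h * u) * d.n =
            (d.n⁻¹ * d.h * d.n)⁻¹ * (b * ((u * d.n * b)⁻¹ * d.h * (u * d.n * b)) * b⁻¹) := by group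
        rw [e]
        exact mul_mem (inv_mem d.hn) (mul_mem (mul_mem hb h1) (inv_mem hb))
      have h3 := d.ti' hw h2
      have h4 : u = 1 := d.free u hu (by
        have e : d.h * u = u * d.h * (d.h⁻¹ * u⁻¹ * d.h * u) := by group
        rw [e, h3, mul_one])
      exact ⟨b, hb, by rw [e, h4, one_mul]⟩
  have ha : ∀ g, g⁻¹ * α g ∈ d.B := fun g => by
    rcases d.bru g with hg | ⟨u, hu, b, hb, rfl⟩
    · exact mul_mem (inv_mem hg) (hB g hg)
    · have e : (u * d.n * b)⁻¹ * α (u * d.n * b) = b⁻¹ * b1 * α b := by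
        rw [map_mul, map_mul, hU u hu, en]; group
      rw [e]
      exact mul_mem (mul_mem (inv_mem hb) hb1) (hB b hb)
  have hK := d.gen (α.toMonoidHom.eqLocus (MonoidHom.id E)) (fun u hu => hU u hu) fun u hu => by
    change α (d.n * u * d.n⁻¹) = d.n * u * d.n⁻¹
    have h1 := ha (d.n * u * d.n⁻¹)
    have e : α (d.n * u * d.n⁻¹) = d.n * (b1 * u * b1⁻¹) * d.n⁻¹ := by
      rw [map_mul, map_mul, map_inv, hU u hu, en]; group
    have e2 : (d.n * u * d.n⁻¹)⁻¹ * (d.n * (b1 * u * b1⁻¹) * d.n⁻¹) = d.n * (u⁻¹ * (b1 * u * b1⁻¹)) * d.n⁻¹ := by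
      group
    rw [e, e2] at h1
    have h2 := d.ti _ (mul_mem (inv_mem hu) (d.Bn b1 hb1 u hu)) h1
    rw [e, ← inv_mul_eq_one.1 h2]
  have : g ∈ α.toMonoidHom.eqLocus (MonoidHom.id E) := hK ▸ Subgroup.mem_top g
  exact this

theorem zpow_mul {b u : E} (hb : b ∈ d.B) (hu : u ∈ (d.U : Subgroup E)) (m : ℤ) :
    ∃ u' ∈ (d.U : Subgroup E), (b * u) ^ m = b ^ m * u' := by
  let q := QuotientGroup.mk' ((d.U : Subgroup E).subgroupOf d.B)
  have e : q ⟨b, hb⟩ = q ⟨b * u, mul_mem hb (d.UB hu)⟩ := by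
    refine QuotientGroup.eq.2 ?_
    rw [Subgroup.mem_subgroupOf]
    simpa using hu
  have e2 : q (⟨b, hb⟩ ^ m) = q (⟨b * u, mul_mem hb (d.UB hu)⟩ ^ m) := by rw [map_zpow, map_zpow, e]
  have h3 := QuotientGroup.eq.1 e2
  rw [Subgroup.mem_subgroupOf] at h3
  refine ⟨(b ^ m)⁻¹ * (b * u) ^ m, by simpa using h3, by group⟩

/-- An automorphism stabilising `U` maps `h` to a power of `h` modulo `U`. -/
theorem aut_h (β : E ≃* E) (h1 : ∀ u ∈ (d.U : Subgroup E), β u ∈ (d.U : Subgroup E))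
    (h2 : ∀ u ∈ (d.U : Subgroup E), β.symm u ∈ (d.U : Subgroup E)) :
    ∃ k : ℤ, ∃ u ∈ (d.U : Subgroup E), β d.h = d.h ^ k * u := by
  have hc : β d.c ∈ d.B := d.mem_B fun u hu => by
    have e : β d.c * u * (β d.c)⁻¹ = β (d.c * β.symm u * d.c⁻¹) := by
      rw [map_mul, map_mul, map_inv, MulEquiv.apply_symm_apply]
    rw [e]
    exact h1 _ (d.Bn _ d.cB _ (h2 u hu))
  obtain ⟨k, u2, hu2, e2⟩ := d.cyc _ hc
  obtain ⟨m, u3, hu3, e3⟩ := d.cyc _ d.hB
  obtain ⟨u4, hu4, e4⟩ := d.zpow_mul (d.B.zpow_mem d.cB k) hu2 m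
  obtain ⟨u5, hu5, e5⟩ := d.zpow_mul (d.B.zpow_mem d.cB m) hu3 k
  refine ⟨k, u5⁻¹ * u4 * β u3, mul_mem (mul_mem (inv_mem hu5) hu4) (h1 _ hu3), ?_⟩
  have e6 : β d.h = (d.c ^ k) ^ m * u4 * β u3 := by
    conv_lhs => rw [e3]
    rw [map_mul, map_zpow, e2, e4]
  have e7 : d.h ^ k = (d.c ^ k) ^ m * u5 := by
    conv_lhs => rw [e3]
    rw [e5, ← _root_.zpow_mul, ← _root_.zpow_mul, mul_comm m k]
  rw [e6, e7]; group

/-- Transport along a surjection with central kernel. -/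
noncomputable def map [Finite E] [Fact p.Prime] {E' : Type*} [Group E'] (π : E →* E') (hπ : Function.Surjective π)
    (hk : π.ker ≤ Subgroup.center E) : R1 p E' where
  U := d.U.mapSurjective hπ
  B := d.B.map π
  n := π d.n
  h := π d.h
  c := π d.c
  UB := Subgroup.map_mono d.UB
  Bn := by
    rintro _ ⟨b, hb, rfl⟩ _ ⟨u, hu, rfl⟩
    exact ⟨b * u * b⁻¹, d.Bn b hb u hu, by simp⟩
  n2 := ⟨d.n * d.n, d.n2, by simp⟩
  bru := fun g => by
    obtain ⟨g, rfl⟩ := hπ g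
    rcases d.bru g with hg | ⟨u, hu, b, hb, rfl⟩
    · exact Or.inl ⟨g, hg, rfl⟩
    · exact Or.inr ⟨π u, ⟨u, hu, rfl⟩, π b, ⟨b, hb, rfl⟩, by simp⟩
  ti := by
    rintro _ ⟨u, hu, rfl⟩ ⟨b, hb, e⟩
    have h1 : b⁻¹ * (d.n * u * d.n⁻¹) ∈ π.ker := by
      simp only [MonoidHom.mem_ker, map_mul, map_inv, e]; group
    have h2 : d.n * u * d.n⁻¹ ∈ d.B := by
      simpa using mul_mem hb (d.center_le (hk h1))
    rw [d.ti u hu h2, map_one]
  nt := by
    obtain ⟨u, hu, h0⟩ := d.nt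
    exact ⟨π u, ⟨u, hu, rfl⟩, fun e => h0 (d.eq_one_of_center (hk e) hu)⟩
  perf := by
    have := congrArg (Subgroup.map π) d.perf
    rwa [commutator_def, Subgroup.map_commutator, Subgroup.map_top_of_surjective π hπ, ← commutator_def] at this
  hB := ⟨d.h, d.hB, rfl⟩
  hn := ⟨d.n⁻¹ * d.h * d.n, d.hn, by simp⟩
  free := by
    rintro _ ⟨u, hu, rfl⟩ e
    have h1 : d.h⁻¹ * u⁻¹ * d.h * u ∈ π.ker := by
      rw [MonoidHom.mem_ker, mul_assoc (d.h⁻¹ * u⁻¹), map_mul, map_mul π d.h, e]; simp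
    have h2 := d.eq_one_of_center (hk h1) (mul_mem (d.Bn' d.hB (inv_mem hu)) hu)
    have h4 : u = 1 := d.free u hu (by
      have e : d.h * u = u * d.h * (d.h⁻¹ * u⁻¹ * d.h * u) := by group
      rw [e, h2, mul_one])
    rw [h4, map_one]
  hp := by rw [← map_pow, d.hp, map_one]
  cB := ⟨d.c, d.cB, rfl⟩
  cyc := by
    rintro _ ⟨b, hb, rfl⟩
    obtain ⟨i, u, hu, rfl⟩ := d.cyc b hb
    exact ⟨i, π u, ⟨u, hu, rfl⟩, by simp⟩

include d in
theorem of_equiv [Finite E] [Fact p.Prime] {E' : Type*} [Group E'] (e : E ≃* E') : Nonempty (R1 p E') :=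
  ⟨d.map e.toMonoidHom e.surjective fun x hx => by
    have : x = 1 := e.injective (by simpa using hx)
    rw [this]; exact one_mem _⟩

include d in
theorem quot [Finite E] [Fact p.Prime] : Nonempty (R1 p (E ⧸ Subgroup.center E)) :=
  ⟨d.map (QuotientGroup.mk' _) (QuotientGroup.mk'_surjective _) (by rw [QuotientGroup.ker_mk'])⟩

include d in
theorem exists_U [Finite E] [Fact p.Prime] (T : Sylow p E) : ∃ d' : R1 p E, d'.U = T := by
  obtain ⟨g, rfl⟩ := MulAction.exists_smul_eq E d.U T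
  refine ⟨d.map (MulAut.conj g).toMonoidHom (MulAut.conj g).surjective fun x hx => ?_, ?_⟩
  · have : x = 1 := (MulAut.conj g).injective (by simpa using hx)
    rw [this]; exact one_mem _
  · exact Sylow.ext rfl

end R1

theorem exists_sylow_inf {X : Type*} [Group X] [Finite X] {p : ℕ} [Fact p.Prime] (S : Sylow p X) (N : Subgroup X)
    [N.Normal] : ∃ T : Sylow p N, ∀ u : N, u ∈ (T : Subgroup N) ↔ (u : X) ∈ (S : Subgroup X) := by
  obtain ⟨T0⟩ : Nonempty (Sylow p N) := inferInstance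
  obtain ⟨Q, hQ⟩ := T0.exists_comap_subtype_eq
  obtain ⟨g, rfl⟩ := MulAction.exists_smul_eq X Q S
  refine ⟨T0.mapSurjective (f := (MulAut.conjNormal g : MulAut N).toMonoidHom) (MulAut.conjNormal g).surjective,
    fun u => ?_⟩
  change u ∈ (T0 : Subgroup N).map (MulAut.conjNormal g : MulAut N).toMonoidHom ↔ _
  rw [← hQ, Sylow.coe_subgroup_smul, Subgroup.mem_pointwise_smul_iff_inv_smul_mem]
  constructor
  · rintro ⟨v, hv, rfl⟩
    have hv' : (v : X) ∈ (Q : Subgroup X) := hv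
    simpa [MulAut.conjNormal_apply, mul_assoc] using hv'
  · intro hu
    refine ⟨MulAut.conjNormal g⁻¹ u, ?_, by simp⟩
    change ((MulAut.conjNormal g⁻¹ u : N) : X) ∈ (Q : Subgroup X)
    rw [MulAut.conjNormal_apply]
    simpa [mul_assoc] using hu

/-- The key lemma. -/
theorem key {X : Type*} [Group X] [Finite X] {p : ℕ} [hp : Fact p.Prime] (hO : pCore p X = ⊥)
    (d0 : R1 p (pResidual p X)) (S : Sylow p X) {z : X} (hz : z ∈ (S : Subgroup X))
    (hc : ∀ x ∈ Subgroup.normalizer ((S : Subgroup X) : Set X), x * z = z * x) : z = 1 := by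
  obtain ⟨T, hT⟩ := exists_sylow_inf S (pResidual p X)
  obtain ⟨d, hd⟩ := d0.exists_U T
  have hU : ∀ u : pResidual p X, u ∈ (d.U : Subgroup _) ↔ (u : X) ∈ (S : Subgroup X) := fun u => by
    rw [hd, hT]
  have hs : ∀ s ∈ (S : Subgroup X), ∀ u ∈ (d.U : Subgroup (pResidual p X)),
      MulAut.conjNormal s u ∈ (d.U : Subgroup (pResidual p X)) := fun s hs u hu => by
    rw [hU] at hu ⊢
    rw [MulAut.conjNormal_apply]
    exact mul_mem (mul_mem hs hu) (inv_mem hs)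
  obtain ⟨h, hh⟩ : ∃ h : X, h = (d.h : X) := ⟨_, rfl⟩
  have hp1 : h ^ (p - 1) = 1 := by rw [hh, ← Subgroup.coe_pow, d.hp, Subgroup.coe_one]
  have hpos : 0 < p - 1 := by have := hp.out.two_le; omega
  -- the orbit of the coset `h S`
  have horb : ∀ s ∈ (S : Subgroup X), ∃ i < p - 1, (h ^ i)⁻¹ * (s * h) ∈ (S : Subgroup X) := fun s hs' => by
    obtain ⟨k, u, hu, e⟩ := d.aut_h (MulAut.conjNormal s) (hs s hs') fun u hu => by
      have := hs s⁻¹ (inv_mem hs') u hu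
      rwa [map_inv] at this
    have e1 : s * h * s⁻¹ = h ^ k * u := by
      have := congrArg Subtype.val e
      rw [hh]
      simpa [MulAut.conjNormal_apply] using this
    refine ⟨(k % (p - 1 : ℕ)).toNat, ?_, ?_⟩
    · have := Int.emod_lt_of_pos k (show (0 : ℤ) < (p - 1 : ℕ) by exact_mod_cast hpos)
      have := Int.emod_nonneg k (show ((p - 1 : ℕ) : ℤ) ≠ 0 by exact_mod_cast hpos.ne')
      omega
    · have e2 : h ^ (k % (p - 1 : ℕ)).toNat = h ^ k := by
        rw [← zpow_natCast, Int.toNat_of_nonneg (Int.emod_nonneg k (by exact_mod_cast hpos.ne'))]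
        exact (zpow_eq_zpow_emod' k hp1).symm
      have e3 : (h ^ k)⁻¹ * (s * h) = u * s := by
        rw [show s * h = s * h * s⁻¹ * s by group, e1]; group
      rw [e2, e3]
      exact mul_mem ((hU u).1 hu) hs'
  have hhN : h ∈ Subgroup.normalizer ((S : Subgroup X) : Set X) := by
    obtain ⟨m, hm⟩ := S.isPGroup'.card_orbit (h : X ⧸ (S : Subgroup X))
    have hle : Nat.card (MulAction.orbit (S : Subgroup X) (h : X ⧸ (S : Subgroup X))) ≤ p - 1 := by
      have hsub : MulAction.orbit (S : Subgroup X) (h : X ⧸ (S : Subgroup X)) ⊆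
          (fun i : ℕ => ((h ^ i : X) : X ⧸ (S : Subgroup X))) '' (Finset.range (p - 1) : Set ℕ) := by
        rintro _ ⟨s, rfl⟩
        obtain ⟨i, hi, e⟩ := horb s s.2
        exact ⟨i, by simpa using hi, QuotientGroup.eq.2 e⟩
      have := (Set.ncard_le_ncard hsub).trans (Set.ncard_image_le (Finset.finite_toSet _))
      rw [Set.ncard_coe_finset, Finset.card_range] at this
      exact this
    have hm0 : m = 0 := by
      by_contra h0
      have := Nat.le_of_dvd (pow_pos hp.out.pos m) (dvd_pow_self p h0)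
      omega
    rw [hm0, pow_zero] at hm
    have hsub := (Nat.card_eq_one_iff_unique.1 hm).1
    have hfix : ∀ s ∈ (S : Subgroup X), h⁻¹ * s * h ∈ (S : Subgroup X) := fun s hs' => by
      have e := congrArg Subtype.val (hsub.elim ⟨_, MulAction.mem_orbit_self _⟩
        ⟨_, MulAction.mem_orbit (h : X ⧸ (S : Subgroup X)) (⟨s, hs'⟩ : (S : Subgroup X))⟩)
      have e' : (h : X ⧸ (S : Subgroup X)) = ((s * h : X) : X ⧸ (S : Subgroup X)) := e
      simpa [mul_assoc] using QuotientGroup.eq.1 e'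
    rw [← inv_mem_iff]
    refine Subgroup.mem_normalizer_fintype fun s hs' => ?_
    rw [inv_inv]
    exact hfix s hs'
  have hα := d.aut_eq (MulAut.conjNormal z) (fun u hu => Subtype.ext (by
      rw [MulAut.conjNormal_apply, ← hc _ (Subgroup.le_normalizer ((hU u).1 hu))]; group))
    (Subtype.ext (by rw [MulAut.conjNormal_apply, ← hh, ← hc _ hhN]; group))
  have hcen : z ∈ Subgroup.center X := by
    have : pResidual p X ⊔ (S : Subgroup X) ≤ Subgroup.centralizer {z} := by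
      refine sup_le (fun x hx => ?_) fun x hx => ?_
      · have e := congrArg Subtype.val (hα ⟨x, hx⟩)
        rw [MulAut.conjNormal_apply] at e
        rw [Subgroup.mem_centralizer_singleton_iff]
        exact (mul_inv_eq_iff_eq_mul.1 e).symm
      · rw [Subgroup.mem_centralizer_singleton_iff]
        exact hc _ (Subgroup.le_normalizer hx)
    rw [GT.pResidual_sup_sylow] at this
    exact Subgroup.mem_center_iff.2 fun g => Subgroup.mem_centralizer_singleton_iff.1 (this (Subgroup.mem_top g))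
  have hN : (Subgroup.zpowers z).Normal := ⟨fun x hx g => by
    have := Subgroup.mem_center_iff.1 ((Subgroup.zpowers_le.2 hcen) hx) g
    rw [this]; simpa using hx⟩
  have := GT.pCore_eq_bot_iff.1 hO _ hN (S.isPGroup'.to_le (Subgroup.zpowers_le.2 hz))
  exact Subgroup.zpowers_eq_bot.1 this

end Cfsg.Agent.R47
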