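import Mathlib
import Cfsg.Agent.R47.Abs
import Cfsg.Agent.Cl.U3
import Cfsg.Agent.Cl.UGen
import Cfsg.Agent.Cl.LinearSylow
import Cfsg.Agent.Cl.LinearBasic

/-! The rank one data of `SL₂(q)` and `SU₃(q)`, `q` a power of `p ≥ 5`. -/

set_option autoImplicit false

namespace Cfsg.Agent.R47

open Cfsg Cfsg.Agent.Cl Matrix

variable {F : Type*} [Field F] {p : ℕ} [hp : Fact p.Prime] [CharP F p]

theorem two_facts (h5 : 5 ≤ p) : (2 : F) ≠ 0 ∧ (2 : F) ≠ 1 ∧ (2 : F) ^ 2 ≠ 1 ∧ (2 : F) ^ (p - 1) = 1 := by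
  have hn : ∀ n : ℕ, 0 < n → n < 5 → (n : F) ≠ 0 := fun n h0 h1 e => by
    have := Nat.le_of_dvd h0 ((CharP.cast_eq_zero_iff F p n).1 e)
    omega
  have h2 : (2 : F) ≠ 0 := by exact_mod_cast hn 2 (by norm_num) (by norm_num)
  have h3 : (3 : F) ≠ 0 := by exact_mod_cast hn 3 (by norm_num) (by norm_num)
  refine ⟨h2, fun e => one_ne_zero (α := F) (by linear_combination e), fun e => h3 (by linear_combination e), ?_⟩
  have e : (2 : F) ^ p = 2 := by
    have := add_pow_char (1 : F) 1 p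
    rwa [one_pow, one_add_one_eq_two] at this
  have e2 : (2 : F) ^ p = 2 ^ (p - 1) * 2 := by rw [← pow_succ]; congr 1; omega
  exact mul_right_cancel₀ h2 (by rw [← e2, e, one_mul])

theorem r1_su [Finite F] {σ : F →+* F} {q : ℕ} (h5 : 5 ≤ p) (hq : UField σ q) (hq2 : q ≠ 2) :
    Nonempty (R1 p (SU 3 F q)) := by
  obtain ⟨D, -⟩ := hq.exists_u3Data_SU
  obtain ⟨t0, t1, t2, t3⟩ := two_facts (F := F) h5
  obtain ⟨c, hc⟩ := IsCyclic.exists_generator (α := Fˣ)
  set a : Fˣ := Units.mk0 2 t0 with ha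
  have hσ : σ 2 = 2 := map_ofNat σ 2
  have hl : (uLam σ a : F) = 2 := by
    rw [coe_uLam, ha, Units.val_mk0, hσ]; field_simp
  refine ⟨{
    U := D.sylow p
    B := D.B
    n := D.w
    h := D.h a
    c := D.h c
    UB := D.range_u_le_B
    Bn := fun b hb u hu => D.conj_mem_range_u hb hu
    n2 := by rw [D.w_sq]; exact one_mem _
    bru := fun g => ?_
    ti := fun u hu h => ?_
    nt := ?_
    perf := hq.commutator_SU le_rfl fun h => hq2 h.2
    hB := D.h_mem_B a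
    hn := by rw [D.w_inv, D.w_h]; exact D.h_mem_B _
    free := ?_
    hp := ?_
    cB := D.h_mem_B c
    cyc := fun b hb => ?_ }⟩
  · rcases D.bruhat g with h | ⟨x, y, b, rfl⟩
    · exact Or.inl (D.mem_B_iff.2 h)
    · exact Or.inr ⟨D.u x, ⟨x, rfl⟩, _, D.mem_B_iff.2 ⟨y, b, rfl⟩, rfl⟩
  · by_contra h1
    exact D.w_notMem_B (D.mem_B_of_conj_mem hu h1 h)
  · obtain ⟨u, hu⟩ := Subgroup.ne_bot_iff_exists_ne_one.1 D.range_u_ne_bot
    exact ⟨u, u.2, fun e => hu (Subtype.ext e)⟩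
  · rintro _ ⟨x, rfl⟩ e
    rw [D.h_mul_u] at e
    have e1 := D.u_injective (mul_right_cancel e)
    have eb := congrArg UHeis.b e1
    have ec := congrArg UHeis.c e1
    rw [UHeis.torus_b, hl] at eb
    rw [UHeis.torus_c, hl, hσ] at ec
    have hb : x.b = 0 := by linear_combination eb
    have hc : x.c = 0 := by
      by_contra h0
      exact t2 (mul_right_cancel₀ h0 (by linear_combination ec))
    have : x = 1 := by ext <;> simp [hb, hc]
    rw [this, map_one]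
  · have : a ^ (p - 1) = 1 := Units.ext (by simpa [ha] using t3)
    rw [← map_pow, this, map_one]
  · obtain ⟨x, b', rfl⟩ := D.mem_B_iff.1 hb
    obtain ⟨i, rfl⟩ := hc b'
    exact ⟨i, _, ⟨_, rfl⟩, (D.u_mul_h x (c ^ i)).trans (by rw [map_zpow])⟩

/-- The diagonal matrices of `SL₂`. -/
def dg : Fˣ →* SpecialLinearGroup (Fin 2) F where
  toFun a := ⟨!![(a : F), 0; 0, ((a⁻¹ : Fˣ) : F)], by simp [det_fin_two]⟩
  map_one' := by ext i j; fin_cases i <;> fin_cases j <;> simp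
  map_mul' a b := Subtype.ext (by
    change !![((a * b : Fˣ) : F), 0; 0, (((a * b)⁻¹ : Fˣ) : F)] =
      !![(a : F), 0; 0, ((a⁻¹ : Fˣ) : F)] * !![(b : F), 0; 0, ((b⁻¹ : Fˣ) : F)]
    ext i j; fin_cases i <;> fin_cases j <;> simp [mul_apply, Fin.sum_univ_two, mul_comm])

theorem coe_dg (a : Fˣ) : (dg a : Matrix (Fin 2) (Fin 2) F) = !![(a : F), 0; 0, (a : F)⁻¹] := by
  change !![(a : F), 0; 0, ((a⁻¹ : Fˣ) : F)] = _
  simp

/-- The Weyl element of `SL₂`. -/
def nw : SpecialLinearGroup (Fin 2) F := ⟨!![0, -1; 1, 0], by simp [det_fin_two]⟩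

theorem coe_nw : ((nw : SpecialLinearGroup (Fin 2) F) : Matrix (Fin 2) (Fin 2) F) = !![0, -1; 1, 0] := rfl

theorem r1_sl [Finite F] (h5 : 5 ≤ p) : Nonempty (R1 p (SpecialLinearGroup (Fin 2) F)) := by
  obtain ⟨t0, t1, t2, t3⟩ := two_facts (F := F) h5
  obtain ⟨c, hc⟩ := IsCyclic.exists_generator (α := Fˣ)
  set a : Fˣ := Units.mk0 2 t0 with ha
  have hb : Function.Injective (id : Fin 2 → Fin 2) := Function.injective_id
  have mU : ∀ g : SpecialLinearGroup (Fin 2) F, g ∈ (unipSylowSL F p hb : Subgroup _) ↔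
      g.1 0 0 = 1 ∧ g.1 1 0 = 0 ∧ g.1 1 1 = 1 := fun g => by
    change g ∈ unipSylowSL F p hb ↔ _
    rw [mem_unipSylowSL]
    simp [Fin.forall_fin_two]
  have mB : ∀ g : SpecialLinearGroup (Fin 2) F,
      g ∈ Subgroup.normalizer ((unipSylowSL F p hb : Subgroup (SpecialLinearGroup (Fin 2) F)) : Set _) ↔
      g.1 1 0 = 0 := fun g => by
    rw [mem_normalizer_unipSylowSL]
    simp [Fin.forall_fin_two]
  have hd : ∀ g : SpecialLinearGroup (Fin 2) F, g.1 0 0 * g.1 1 1 - g.1 0 1 * g.1 1 0 = 1 := fun g => by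
    have := g.2
    rwa [det_fin_two] at this
  refine ⟨{
    U := unipSylowSL F p hb
    B := Subgroup.normalizer ((unipSylowSL F p hb : Subgroup (SpecialLinearGroup (Fin 2) F)) : Set _)
    n := nw
    h := dg a
    c := dg c
    UB := Subgroup.le_normalizer
    Bn := fun b hb u hu => (Subgroup.mem_normalizer_iff.1 hb u).1 hu
    n2 := by rw [mB]; simp [coe_nw, mul_apply, Fin.sum_univ_two]
    bru := fun g => ?_
    ti := fun u hu h => ?_
    nt := ⟨⟨!![1, 1; 0, 1], by simp [det_fin_two]⟩, (mU _).2 (by simp), fun e => ?_⟩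
    perf := sl_commutator_eq_top (Or.inr ⟨2, t0, t2⟩)
    hB := by rw [mB]; simp [coe_dg]
    hn := by rw [mB]; simp [coe_dg, coe_nw, mul_apply, Fin.sum_univ_two, adjugate_fin_two]
    free := fun u hu e => ?_
    hp := ?_
    cB := by rw [mB]; simp [coe_dg]
    cyc := fun b hb => ?_ }⟩
  · by_cases h0 : g.1 1 0 = 0
    · exact Or.inl ((mB g).2 h0)
    · let u : SpecialLinearGroup (Fin 2) F := ⟨!![1, g.1 0 0 / g.1 1 0; 0, 1], by simp [det_fin_two]⟩
      have hu : (u : Matrix (Fin 2) (Fin 2) F) = !![1, g.1 0 0 / g.1 1 0; 0, 1] := rfl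
      refine Or.inr ⟨u, (mU _).2 (by simp [hu]), (u * nw)⁻¹ * g, ?_, by group⟩
      rw [mB]
      change (adjugate (!![1, g.1 0 0 / g.1 1 0; 0, 1] * !![0, -1; 1, 0]) * g.1 : Matrix (Fin 2) (Fin 2) F) 1 0 = 0
      simp [mul_apply, Fin.sum_univ_two, adjugate_fin_two, vecMul, dotProduct]
      field_simp
      ring
  · rw [mB] at h
    obtain ⟨h1, h2, h3⟩ := (mU u).1 hu
    have h4 : u.1 0 1 = 0 := by
      simpa [coe_nw, mul_apply, Fin.sum_univ_two, adjugate_fin_two, vecMul, dotProduct] using h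
    ext i j
    fin_cases i <;> fin_cases j <;> simp [h1, h2, h3, h4]
  · have := congrArg (fun g : SpecialLinearGroup (Fin 2) F => g.1 0 1) e
    simp at this
  · obtain ⟨h1, h2, h3⟩ := (mU u).1 hu
    have e1 := congrArg (fun g : SpecialLinearGroup (Fin 2) F => g.1 0 1) e
    simp [coe_dg, mul_apply, Fin.sum_univ_two, ha] at e1
    have h4 : u.1 0 1 = 0 := by
      by_contra h0
      field_simp at e1
      exact t2 e1
    ext i j
    fin_cases i <;> fin_cases j <;> simp [h1, h2, h3, h4]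
  · have : a ^ (p - 1) = 1 := Units.ext (by simpa [ha] using t3)
    rw [← map_pow, this, map_one]
  · rw [mB] at hb
    have h1 := hd b
    rw [hb, mul_zero, sub_zero] at h1
    have h0 : b.1 0 0 ≠ 0 := left_ne_zero_of_mul_eq_one h1
    obtain ⟨i, hi⟩ := hc (Units.mk0 _ h0)
    refine ⟨i, (dg c ^ i)⁻¹ * b, ?_, by group⟩
    rw [← map_zpow, show c ^ i = Units.mk0 _ h0 from hi, ← map_inv, mU]
    simp [coe_dg, mul_apply, Fin.sum_univ_two, hb, h0, h1]

end Cfsg.Agent.R47
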